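import Cfsg.Agent.Lib.SPL.Def

/-! # S3665: the group side as a condition on the spectrum, numerics for `L₂`, `L₃`, `U₃` -/

set_option autoImplicit false

namespace Cfsg.Lib.SP3

open Cfsg.Lib.SPL

/-- what is known of the spectrum `ω` of a finite group with a composition factor of sporadic order `N` -/
structure GS (ω : Set ℕ) (N : ℕ) : Prop where
  mem : N ∈ ords
  nt : N ≠ 17971200
  pi : ∀ s, s.Prime → s ∣ N → s ∈ ω
  iso : ∀ m ∈ ω, (∀ r, r.Prime → r ∣ m → r ≠ 2 ∧ 2 * r ∉ ω) → m ∣ N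
  four : N ≠ 175560 → 4 ∈ ω
  j2 : N = 604800 → 15 ∈ ω
  k133 : N = 175560 ∨ N = 273030912000000 → 133 ∈ ω → (∀ m ∈ ω, 7 ∣ m ∨ 19 ∣ m → m ∣ 665) → False

def PL : List ℕ := [2, 3, 5, 7, 11, 13, 17, 19, 23, 29, 31, 37, 41, 43, 47, 59, 67, 71]

theorem PL_prime : ∀ s ∈ PL, s.Prime := by decide +kernel

def ML : List (ℕ × ℕ) := [(2, 46), (3, 20), (5, 9), (7, 6), (11, 3), (13, 3), (17, 1), (19, 1), (23, 1), (29, 1), (31, 1),
  (37, 1), (41, 1), (43, 1), (47, 1), (59, 1), (67, 1), (71, 1)]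

/-- the divisors -/
def dv : List (ℕ × ℕ) → List ℕ
  | [] => [1]
  | x :: L => (List.range (x.2 + 1)).flatMap fun i => (dv L).map (x.1 ^ i * ·)

theorem mem_dv (P : ℕ → Bool) : ∀ (L : List (ℕ × ℕ)) (k : ℕ), (∀ x ∈ L, x.1.Prime) → k ∣ (L.map fun x => x.1 ^ x.2).prod →
    (∀ r, r.Prime → r ∣ k → P r) → k ∈ dv (L.filter fun x => P x.1)
  | [], k, _, h, _ => by simpa [dv] using h
  | x :: L, k, h1, h, h2 => by
    have hx := h1 x (by simp)
    obtain ⟨a, b, ha, hb, rfl⟩ := exists_dvd_and_dvd_of_dvd_mul h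
    obtain ⟨i, hi, rfl⟩ := (Nat.dvd_prime_pow hx).1 ha
    have ih := mem_dv P L b (fun y hy => h1 y (by simp [hy])) hb fun r hr d => h2 r hr (d.mul_left _)
    by_cases e : P x.1
    · simp only [List.filter_cons, e, if_true, dv, List.mem_flatMap, List.mem_range, List.mem_map]
      exact ⟨i, by omega, b, ih, rfl⟩
    · obtain rfl : i = 0 := by
        by_contra n
        exact e (h2 _ hx ((dvd_pow_self _ n).mul_right _))
      simpa [List.filter_cons, e] using ih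

theorem mem_dv_MM (P : ℕ → Bool) {k : ℕ} (h : k ∣ MM) (h2 : ∀ r, r.Prime → r ∣ k → P r) :
    k ∈ dv (ML.filter fun x => P x.1) :=
  mem_dv P ML k (by decide +kernel) (by rwa [show (ML.map fun x => x.1 ^ x.2).prod = MM by decide +kernel]) h2

theorem mem_PL {s : ℕ} (hs : s.Prime) (h : s ∣ MM) : s ∈ PL := by
  rw [← show (ML.map fun x => x.1 ^ x.2).prod = MM by decide +kernel] at h
  obtain ⟨_, h1, h2⟩ := (Prime.dvd_prod_iff hs.prime).1 h
  obtain ⟨x, hx, rfl⟩ := List.mem_map.1 h1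
  have := (by decide +kernel : ∀ x ∈ ML, x.1 ∈ PL) x hx
  rwa [(Nat.prime_dvd_prime_iff_eq hs (PL_prime _ this)).1 (hs.dvd_of_dvd_pow h2)]

/-- Newton's iteration for the square root -/
def nw (n : ℕ) : ℕ → ℕ → ℕ
  | 0, x => x
  | f + 1, x => if (x + n / x) / 2 < x then nw n f ((x + n / x) / 2) else x

theorem eq_of_sq {s t n : ℕ} (h : s * s ≤ n ∧ n < (s + 1) * (s + 1)) (e : t * t = n) : t = s := by
  subst e
  exact le_antisymm (Nat.lt_succ_iff.1 (Nat.mul_self_lt_mul_self_iff.1 h.2)) (Nat.mul_self_le_mul_self_iff.1 h.1)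

def R3 : List (ℕ × ℕ × ℕ) := [(11, 133, 175560), (11, 133, 273030912000000), (4, 7, 604800), (5, 7, 604800),
  (10, 91, 64561751654400), (10, 91, 448345497600)]

def c3 (k q : ℕ) : Bool :=
  q < 2 || ords.all fun N => N == 17971200 || N % k != 0 || (PL.any fun s => N % s == 0 && q * (q * q - 1) * k % s != 0) ||
    (q, k, N) ∈ R3

def d3 (k n s : ℕ) : Bool :=
  s * s ≤ n && n < (s + 1) * (s + 1) && (s * s != n || (c3 k ((s - 1) / 2) && c3 k ((s + 1) / 2)))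

theorem chk3 : ∀ k ∈ dv (ML.filter fun x => x.1 % 3 == 1), ∀ d ∈ [1, 3],
    d3 k (4 * d * k - 3) (nw (4 * d * k - 3) 100 (4 * d * k)) = true := by decide +kernel

theorem num3 {N k d q : ℕ} (hN : N ∈ ords) (nt : N ≠ 17971200) (hk : k ∣ N) (hd : d = 1 ∨ d = 3) (hq : 2 ≤ q)
    (e : d * k = q ^ 2 + q + 1 ∨ d * k + q = q ^ 2 + 1) (h3 : ∀ r, r.Prime → r ∣ k → r % 3 = 1)
    (hr : ∀ s, s.Prime → s ∣ N → s ∣ q * (q * q - 1) * k) : (q, k, N) ∈ R3 := by
  have h := chk3 k (mem_dv_MM (· % 3 == 1) (hk.trans (dvd_MM hN)) fun r a b => by simpa using h3 r a b) d (by simpa)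
  generalize nw _ _ _ = s at h
  simp only [d3, Bool.and_eq_true, decide_eq_true_eq, Bool.or_eq_true, bne_iff_ne] at h
  have c : c3 k q = true := by
    rcases e with e | e
    · obtain rfl := eq_of_sq h.1 (t := 2 * q + 1) (by rw [mul_assoc, e]; ring_nf; omega)
      simpa using (h.2.resolve_left (not_not.2 (by rw [mul_assoc 4, e]; ring_nf; omega))).1
    · obtain ⟨q, rfl⟩ := Nat.exists_eq_add_of_le' (show 1 ≤ q by omega)
      have e' : d * k = q ^ 2 + q + 1 := by nlinarith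
      obtain rfl := eq_of_sq h.1 (t := 2 * q + 1) (by rw [mul_assoc, e']; ring_nf; omega)
      have := (h.2.resolve_left (not_not.2 (by rw [mul_assoc 4, e']; ring_nf; omega))).2
      rwa [show (2 * q + 1 + 1) / 2 = q + 1 by omega] at this
  simp only [c3, Bool.or_eq_true, decide_eq_true_eq, List.all_eq_true, beq_iff_eq, bne_iff_ne, List.any_eq_true,
    Bool.and_eq_true] at c
  rcases c.resolve_left (by omega) N hN with ((c | c) | ⟨s, h1, h2, h4⟩) | c
  exacts [(nt c).elim, (c (Nat.mod_eq_zero_of_dvd hk)).elim,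
    (h4 (Nat.mod_eq_zero_of_dvd (hr s (PL_prime s h1) (Nat.dvd_of_mod_eq_zero h2)))).elim, c]

def R2 : List (ℕ × ℕ) := [(11, 7920), (11, 95040), (1331, 175560), (1331, 273030912000000), (125, 604800), (49, 604800)]

def c2 (p q u v : ℕ) : Bool :=
  (u % 2 == 1 && MM % u != 0) || (v % 2 == 1 && MM % v != 0) || ords.all fun N => N == 17971200 || N % p != 0 ||
    (u % 2 == 1 && N % u != 0) || (v % 2 == 1 && N % v != 0) || (PL.any fun s => N % s == 0 && p * u * v % s != 0) ||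
    (q, N) ∈ R2

theorem chk2 : ∀ p ∈ PL, ∀ f < 182, c2 p (p ^ (f + 1)) ((p ^ (f + 1) - 1) / Nat.gcd 2 (p ^ (f + 1) - 1))
    ((p ^ (f + 1) + 1) / Nat.gcd 2 (p ^ (f + 1) - 1)) = true := by decide +kernel

theorem num2 {N p f u v : ℕ} (hN : N ∈ ords) (nt : N ≠ 17971200) (hp : p.Prime) (hpN : p ∣ N)
    (eu : u = (p ^ (f + 1) - 1) / Nat.gcd 2 (p ^ (f + 1) - 1)) (ev : v = (p ^ (f + 1) + 1) / Nat.gcd 2 (p ^ (f + 1) - 1))
    (hu : u % 2 = 1 → u ∣ N) (hv : v % 2 = 1 → v ∣ N) (hr : ∀ s, s.Prime → s ∣ N → s ∣ p * u * v) :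
    (p ^ (f + 1), N) ∈ R2 := by
  have m := dvd_MM hN
  have hf : f < 182 := by
    by_contra n
    have h1 : 2 ^ 183 ≤ p ^ (f + 1) :=
      (Nat.pow_le_pow_right two_pos (by omega)).trans (Nat.pow_le_pow_left hp.two_le _)
    have h2 : ∀ x, x ∣ N → x < 2 ^ 181 := fun x d =>
      (Nat.le_of_dvd (ords_pos hN) d).trans_lt ((by decide +kernel : ∀ N ∈ ords, N < 2 ^ 181) N hN)
    have := h2 u
    have := h2 v
    generalize p ^ (f + 1) = q at *
    rcases (Nat.dvd_prime Nat.prime_two).1 (Nat.gcd_dvd_left 2 (q - 1)) with g | g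
    · have := (Nat.Prime.coprime_iff_not_dvd Nat.prime_two).1 g
      rw [g] at eu ev
      omega
    · have := g ▸ Nat.gcd_dvd_right 2 (q - 1)
      rw [g] at eu ev
      omega
  have c := chk2 p (mem_PL hp (hpN.trans m)) f hf
  rw [← eu, ← ev] at c
  simp only [c2, Bool.or_eq_true, decide_eq_true_eq, List.all_eq_true, beq_iff_eq, bne_iff_ne, List.any_eq_true,
    Bool.and_eq_true] at c
  rcases c with (c | c) | c
  · exact (c.2 (Nat.mod_eq_zero_of_dvd ((hu c.1).trans m))).elim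
  · exact (c.2 (Nat.mod_eq_zero_of_dvd ((hv c.1).trans m))).elim
  rcases c N hN with ((((c | c) | c) | c) | ⟨s, h1, h2, h4⟩) | c
  exacts [(nt c).elim, (c (Nat.mod_eq_zero_of_dvd hpN)).elim, (c.2 (Nat.mod_eq_zero_of_dvd (hu c.1))).elim, (c.2 (Nat.mod_eq_zero_of_dvd (hv c.1))).elim,
    (h4 (Nat.mod_eq_zero_of_dvd (hr s (PL_prime s h1) (Nat.dvd_of_mod_eq_zero h2)))).elim, c]

end Cfsg.Lib.SP3
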