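import Cfsg.Agent.Lib.SPG.NumS

/-! # S3665: numerics for `L₂`, `L₃`, `U₃` with the weak divisibility condition -/

set_option autoImplicit false

namespace Cfsg.Lib.SP3

open Cfsg.Lib.SPL Cfsg.Lib.SPG

/-- the condition on the order `k` of an element whose primes are not joined to 2 -/
def Wk (N k : ℕ) : Prop := k ∣ N * (2 ^ N.factorization 2 - 1) ∧ ∀ r, r.Prime → r ∣ k → r ∣ N

/-- what is known of the spectrum `ω` of a finite group with a composition factor of sporadic order `N` -/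
structure GW (ω : Set ℕ) (N : ℕ) : Prop where
  mem : N ∈ ords
  nt : N ≠ 17971200
  pi : ∀ s, s.Prime → s ∣ N → s ∈ ω
  iso : ∀ m ∈ ω, (∀ r, r.Prime → r ∣ m → r ≠ 2 ∧ 2 * r ∉ ω) → Wk N m
  four : N = 7920 ∨ N = 95040 ∨ N = 273030912000000 → 4 ∈ ω
  j2 : N = 604800 → 15 ∈ ω
  kJ : N = 175560 → 133 ∈ ω → (∀ m ∈ ω, 7 ∣ m ∨ 19 ∣ m → m ∣ 665) → False
  kH : N = 273030912000000 → 133 ∈ ω → (∀ m ∈ ω, 7 ∣ m ∨ 19 ∣ m → m ∣ 133) → False

def MW : ℕ := MM * 4371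

def MLW : List (ℕ × ℕ) := [(2, 46), (3, 21), (5, 9), (7, 6), (11, 3), (13, 3), (17, 1), (19, 1), (23, 1), (29, 1), (31, 2),
  (37, 1), (41, 1), (43, 1), (47, 2), (59, 1), (67, 1), (71, 1)]

/-- a test for `¬ Wk N k` -/
def nW (N k : ℕ) : Bool := N * (2 ^ vTwo 50 N - 1) % k != 0 || PL.any fun r => k % r == 0 && N % r != 0

theorem Wk.nW {N k : ℕ} (h : Wk N k) (hN : N ∈ ords) : nW N k ≠ true := fun c => by
  simp only [SP3.nW, Bool.or_eq_true, bne_iff_ne, List.any_eq_true, Bool.and_eq_true, beq_iff_eq] at c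
  rcases c with c | ⟨r, a, b, c⟩
  exacts [c (Nat.mod_eq_zero_of_dvd (fact_two hN ▸ h.1)),
    c (Nat.mod_eq_zero_of_dvd (h.2 r (PL_prime r a) (Nat.dvd_of_mod_eq_zero b)))]

theorem Wk.dvd {N k : ℕ} (h : Wk N k) (hN : N ∈ ords) : k ∣ MW := by
  have h1 := fact_two hN ▸ h.1
  have c : k.Coprime (N * (2 ^ vTwo 50 N - 1) / (N * (2 ^ vTwo 50 N - 1)).gcd MW) := Nat.coprime_of_dvd fun r hr d =>
    (by decide +kernel : ∀ N ∈ ords, ∀ r ∈ PL, ¬ r ∣ N * (2 ^ vTwo 50 N - 1) / (N * (2 ^ vTwo 50 N - 1)).gcd MW) N hN r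
      (mem_PL hr ((h.2 r hr d).trans (dvd_MM hN)))
  refine (c.dvd_of_dvd_mul_right ?_).trans (Nat.gcd_dvd_right (N * (2 ^ vTwo 50 N - 1)) MW)
  rwa [Nat.mul_div_cancel' (Nat.gcd_dvd_left _ _)]

def c3w (k q : ℕ) : Bool :=
  q < 2 || ords.all fun N => N == 17971200 || nW N k || (PL.any fun s => N % s == 0 && q * (q * q - 1) * k % s != 0) ||
    (q, k, N) ∈ R3

def d3w (k n s : ℕ) : Bool :=
  s * s ≤ n && n < (s + 1) * (s + 1) && (s * s != n || (c3w k ((s - 1) / 2) && c3w k ((s + 1) / 2)))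

theorem chk3w : ∀ k ∈ dv (MLW.filter fun x => x.1 % 3 == 1), ∀ d ∈ [1, 3],
    d3w k (4 * d * k - 3) (nw (4 * d * k - 3) 100 (4 * d * k)) = true := by decide +kernel

theorem num3w {N k d q : ℕ} (hN : N ∈ ords) (nt : N ≠ 17971200) (hk : Wk N k) (hd : d = 1 ∨ d = 3) (hq : 2 ≤ q)
    (e : d * k = q ^ 2 + q + 1 ∨ d * k + q = q ^ 2 + 1) (h3 : ∀ r, r.Prime → r ∣ k → r % 3 = 1)
    (hr : ∀ s, s.Prime → s ∣ N → s ∣ q * (q * q - 1) * k) : (q, k, N) ∈ R3 := by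
  have h := chk3w k (mem_dv (· % 3 == 1) MLW k (by decide +kernel)
    (by rw [show (MLW.map fun x => x.1 ^ x.2).prod = MW by decide +kernel]; exact hk.dvd hN)
    fun r a b => by simpa using h3 r a b) d (by simpa)
  generalize nw _ _ _ = s at h
  simp only [d3w, Bool.and_eq_true, decide_eq_true_eq, Bool.or_eq_true, bne_iff_ne] at h
  have c : c3w k q = true := by
    rcases e with e | e
    · obtain rfl := eq_of_sq h.1 (t := 2 * q + 1) (by rw [mul_assoc, e]; ring_nf; omega)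
      simpa using (h.2.resolve_left (not_not.2 (by rw [mul_assoc 4, e]; ring_nf; omega))).1
    · obtain ⟨q, rfl⟩ := Nat.exists_eq_add_of_le' (show 1 ≤ q by omega)
      have e' : d * k = q ^ 2 + q + 1 := by nlinarith
      obtain rfl := eq_of_sq h.1 (t := 2 * q + 1) (by rw [mul_assoc, e']; ring_nf; omega)
      have := (h.2.resolve_left (not_not.2 (by rw [mul_assoc 4, e']; ring_nf; omega))).2
      rwa [show (2 * q + 1 + 1) / 2 = q + 1 by omega] at this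
  simp only [c3w, Bool.or_eq_true, decide_eq_true_eq, List.all_eq_true, beq_iff_eq, bne_iff_ne, List.any_eq_true,
    Bool.and_eq_true] at c
  rcases c.resolve_left (by omega) N hN with ((c | c) | ⟨s, h1, h2, h4⟩) | c
  exacts [(nt c).elim, (hk.nW hN c).elim,
    (h4 (Nat.mod_eq_zero_of_dvd (hr s (PL_prime s h1) (Nat.dvd_of_mod_eq_zero h2)))).elim, c]

def c2w (p q u v : ℕ) : Bool :=
  (u % 2 == 1 && MW % u != 0) || (v % 2 == 1 && MW % v != 0) || ords.all fun N => N == 17971200 || N % p != 0 ||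
    (u % 2 == 1 && nW N u) || (v % 2 == 1 && nW N v) || (PL.any fun s => N % s == 0 && p * u * v % s != 0) ||
    (q, N) ∈ R2

theorem chk2w : ∀ p ∈ PL, ∀ f < 220, c2w p (p ^ (f + 1)) ((p ^ (f + 1) - 1) / Nat.gcd 2 (p ^ (f + 1) - 1))
    ((p ^ (f + 1) + 1) / Nat.gcd 2 (p ^ (f + 1) - 1)) = true := by decide +kernel

theorem num2w {N p f u v : ℕ} (hN : N ∈ ords) (nt : N ≠ 17971200) (hp : p.Prime) (hpN : p ∣ N)
    (eu : u = (p ^ (f + 1) - 1) / Nat.gcd 2 (p ^ (f + 1) - 1)) (ev : v = (p ^ (f + 1) + 1) / Nat.gcd 2 (p ^ (f + 1) - 1))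
    (hu : u % 2 = 1 → Wk N u) (hv : v % 2 = 1 → Wk N v) (hr : ∀ s, s.Prime → s ∣ N → s ∣ p * u * v) :
    (p ^ (f + 1), N) ∈ R2 := by
  have hf : f < 220 := by
    by_contra n
    have h1 : 2 ^ 221 ≤ p ^ (f + 1) :=
      (Nat.pow_le_pow_right two_pos (by omega)).trans (Nat.pow_le_pow_left hp.two_le _)
    have h2 : ∀ x, Wk N x → x < 2 ^ 219 := fun x d =>
      (Nat.le_of_dvd (by decide +kernel) (d.dvd hN)).trans_lt (by decide +kernel)
    have := fun o => h2 u (hu o)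
    have := fun o => h2 v (hv o)
    generalize p ^ (f + 1) = q at *
    rcases (Nat.dvd_prime Nat.prime_two).1 (Nat.gcd_dvd_left 2 (q - 1)) with g | g
    · have := (Nat.Prime.coprime_iff_not_dvd Nat.prime_two).1 g
      rw [g] at eu ev
      omega
    · have := g ▸ Nat.gcd_dvd_right 2 (q - 1)
      rw [g] at eu ev
      omega
  have c := chk2w p (mem_PL hp (hpN.trans (dvd_MM hN))) f hf
  rw [← eu, ← ev] at c
  simp only [c2w, Bool.or_eq_true, decide_eq_true_eq, List.all_eq_true, beq_iff_eq, bne_iff_ne, List.any_eq_true,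
    Bool.and_eq_true] at c
  rcases c with (c | c) | c
  · exact (c.2 (Nat.mod_eq_zero_of_dvd ((hu c.1).dvd hN))).elim
  · exact (c.2 (Nat.mod_eq_zero_of_dvd ((hv c.1).dvd hN))).elim
  rcases c N hN with ((((c | c) | c) | c) | ⟨s, h1, h2, h4⟩) | c
  exacts [(nt c).elim, (c (Nat.mod_eq_zero_of_dvd hpN)).elim, ((hu c.1).nW hN c.2).elim, ((hv c.1).nW hN c.2).elim,
    (h4 (Nat.mod_eq_zero_of_dvd (hr s (PL_prime s h1) (Nat.dvd_of_mod_eq_zero h2)))).elim, c]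

end Cfsg.Lib.SP3
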